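import Cfsg.Agent.Fusion.Biset.TransferInvariant
import Cfsg.Agent.Fusion.AxiomaticThompson
import Cfsg.Agent.Fusion.Model
import Cfsg.Agent.Fusion.Realized
import Cfsg.Agent.Transfer.Focal

/-!
A positive characteristic `p`-functor that controls transfer in constrained groups controls transfer in every
saturated fusion system.
-/

set_option autoImplicit false
set_option linter.style.haveILetI false

open Cfsg

namespace CfsgLib.Fusion

open Cfsg.FusionSystem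

universe u

variable {Ω : Type u} [Group Ω] {S T : Subgroup Ω} {F : Cfsg.FusionSystem S} {p : ℕ}

/-- The value of the functor on a subgroup. -/
def wIn (W : ∀ (Q : Type u) [Group Q], Subgroup Q) (T : Subgroup Ω) : Subgroup Ω := (W T).map T.subtype

/-- The hypotheses on the functor. -/
structure TransferFunctor (p : ℕ) (W : ∀ (Q : Type u) [Group Q], Subgroup Q) : Prop where
  ne_bot : ∀ (Q : Type u) [Group Q] [Finite Q], IsPGroup p Q → Nontrivial Q → W Q ≠ ⊥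
  map_eq : ∀ (Q R : Type u) [Group Q] [Group R] [Finite Q], IsPGroup p Q → ∀ φ : Q ≃* R,
    (W Q).map φ.toMonoidHom = W R
  control : ∀ (G : Type u) [Group G] [Finite G] (P : Sylow p G),
    Subgroup.centralizer ((Cfsg.pCore p G : Subgroup G) : Set G) ≤ Cfsg.pCore p G →
    Cfsg.pCore p G ⊓ commutator G = Cfsg.pCore p G ⊓ (commutator ↥(Subgroup.normalizer
      (((W ↥(P : Subgroup G)).map (P : Subgroup G).subtype : Subgroup G) : Set G))).map
      (Subgroup.normalizer (((W ↥(P : Subgroup G)).map (P : Subgroup G).subtype : Subgroup G) : Set G)).subtype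

variable {W : ∀ (Q : Type u) [Group Q], Subgroup Q}

lemma wIn_le (T : Subgroup Ω) : wIn W T ≤ T := by rintro _ ⟨x, -, rfl⟩; exact x.2

lemma wIn_map (hW : TransferFunctor p W) {T T' : Subgroup Ω} [Finite T] (hT : IsPGroup p T) (e : T ≃* T') {x : T}
    (hx : (x : Ω) ∈ wIn W T) : ((e x : T') : Ω) ∈ wIn W T' := by
  obtain ⟨y, hy, hyx⟩ := hx
  obtain rfl : y = x := Subtype.ext hyx
  exact ⟨e y, (hW.map_eq T T' hT e).le ⟨y, hy, rfl⟩, rfl⟩

lemma wIn_ne_bot (hW : TransferFunctor p W) [Finite T] (hT : IsPGroup p T) (hne : T ≠ ⊥) : wIn W T ≠ ⊥ := by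
  intro h
  exact hW.ne_bot T hT ((Subgroup.nontrivial_iff_ne_bot T).2 hne)
    ((Subgroup.map_eq_bot_iff_of_injective _ T.subtype_injective).1 h)

lemma normalizer_le_wIn (hW : TransferFunctor p W) [Finite T] (hT : IsPGroup p T) :
    Subgroup.normalizer (T : Set Ω) ≤ Subgroup.normalizer (wIn W T : Set Ω) := by
  intro g hg
  haveI := finite_of_le (wIn_le (W := W) T)
  refine Subgroup.mem_normalizer_fintype fun y hy => ?_
  let e : T ≃* T :=
    { toFun := fun x => ⟨g * x * g⁻¹, conj_mem_of_normalizer hg x.2⟩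
      invFun := fun x => ⟨g⁻¹ * x * g, conj_inv_mem_of_normalizer hg x.2⟩
      left_inv := fun x => Subtype.ext (by simp [mul_assoc])
      right_inv := fun x => Subtype.ext (by simp [mul_assoc])
      map_mul' := fun a b => Subtype.ext (by simp [mul_assoc]) }
  exact wIn_map hW hT e (x := ⟨y, wIn_le T hy⟩) hy

/-- The focal subgroup of the normalizer system of the value of the functor. -/
def focN (W : ∀ (Q : Type u) [Group Q], Subgroup Q) (F : Cfsg.FusionSystem S) : Subgroup Ω :=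
  (normalizerSystem F (wIn_le (W := W) S)).focalSubgroup

lemma mem_focN {P : Subgroup Ω} {φ : P →* Ω} (hφ : φ ∈ (normalizerSystem F (wIn_le (W := W) S)).Hom P) (x : P) :
    (x : Ω)⁻¹ * φ x ∈ focN W F := Subgroup.subset_closure ⟨P, φ, x, hφ, rfl⟩

lemma focN_le_focal : focN W F ≤ F.focalSubgroup :=
  Subgroup.closure_mono fun _ ⟨P, φ, x, hφ, he⟩ => ⟨P, φ, x, hφ.1, he⟩

lemma focN_le : focN W F ≤ S := by
  refine (Subgroup.closure_le _).2 ?_
  rintro _ ⟨P, φ, x, hφ, rfl⟩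
  exact S.mul_mem (S.inv_mem (hφ.2.1.trans inf_le_left x.2)) (val_mem hφ.1 x)

lemma focN_le_of_sub {M : Cfsg.FusionSystem T} (hsub : M.IsSubsystemOf F) (hT : T ≤ S) {X : Subgroup Ω}
    (h : ∀ (P : Subgroup Ω) (φ : P →* Ω), φ ∈ F.normalizerHom (wIn W T) P → ∀ x : P, (x : Ω)⁻¹ * φ x ∈ X) :
    focN W M ≤ X := by
  refine (Subgroup.closure_le _).2 ?_
  rintro _ ⟨P, φ, x, ⟨hφ, hP, hv, ψ, hψ, hag, hm⟩, rfl⟩
  have hle : normalizerIn T (wIn W T) ≤ normalizerIn S (wIn W T) := inf_le_inf_right _ hT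
  exact h P φ ⟨hsub _ hφ, hP.trans hle, fun x => hle (hv x), ψ, hsub _ hψ, hag, hm⟩ x

/-- The maps moving every element only by an element of `X`. -/
def congSystem (F : Cfsg.FusionSystem S) (X : Subgroup Ω) (hX : ∀ s ∈ S, ∀ x ∈ S, x⁻¹ * (s * x * s⁻¹) ∈ X) :
    Cfsg.FusionSystem S where
  Hom P := {φ | φ ∈ F.Hom P ∧ ∀ x : P, (x : Ω)⁻¹ * φ x ∈ X}
  le_of_mem h := F.le_of_mem h.1
  injective_of_mem h := F.injective_of_mem h.1
  conj_mem hP hg := ⟨F.conj_mem hP hg, fun x => hX _ hg _ (hP x.2)⟩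
  comp_mem := by
    rintro P R φ ψ ⟨hφ, hφX⟩ ⟨hψ, hψX⟩ h
    refine ⟨F.comp_mem hφ hψ h, fun x => ?_⟩
    have h1 := X.mul_mem (hφX x) (hψX ⟨φ x, h x⟩)
    rw [mul_assoc, mul_inv_cancel_left] at h1
    exact h1
  inv_mem := by
    rintro P φ ⟨hφ, hφX⟩
    obtain ⟨ψ, hψ, hψe⟩ := F.inv_mem hφ
    refine ⟨ψ, ⟨hψ, fun y => ?_⟩, hψe⟩
    obtain ⟨x, hx⟩ := y.2
    have h1 : ψ y = x := by
      rw [← hψe x]
      exact congrArg ψ (Subtype.ext hx.symm)
    have := X.inv_mem (hφX x)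
    rw [mul_inv_rev, inv_inv] at this
    rw [h1, ← hx]
    exact this

variable [Fact p.Prime] [Finite S]

lemma normalizerIn_wIn_self (hW : TransferFunctor p W) (hS : IsPGroup p S) :
    S ≤ Subgroup.normalizer (wIn W S : Set Ω) :=
  Subgroup.le_normalizer.trans (normalizer_le_wIn hW hS)

lemma mem_normalizerSystem_of_aut (hW : TransferFunctor p W) (hS : IsPGroup p S) {α : S →* Ω} (hα : α ∈ F.Hom S)
    {P : Subgroup Ω} (hP : P ≤ S) :
    α.comp (Subgroup.inclusion hP) ∈ (normalizerSystem F (wIn_le (W := W) S)).Hom P := by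
  have hr : α.range = S := Subgroup.eq_of_le_of_card_ge (range_le hα)
    (Nat.card_congr (MonoidHom.ofInjective (F.injective_of_mem hα)).toEquiv).le
  exact mem_normalizerSystem_of_invariant (wIn_le S) hα hP (wIn_le S)
    (hP.trans (le_inf le_rfl (normalizerIn_wIn_self hW hS))) fun y hy =>
      wIn_map hW hS (isoOfHom (F.injective_of_mem hα) hr) (x := ⟨y, wIn_le S hy⟩) hy

lemma conj_mem_focN (hW : TransferFunctor p W) (hS : IsPGroup p S) :
    ∀ s ∈ S, ∀ x ∈ S, x⁻¹ * (s * x * s⁻¹) ∈ focN W F := fun s hs x hx =>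
  mem_focN (mem_normalizerSystem_of_aut hW hS (F.conj_mem le_rfl hs) le_rfl) ⟨x, hx⟩

/-- The automorphisms of a normal centric subgroup move it inside the focal subgroup of the normalizer system. -/
lemma mem_focN_of_centric (hW : TransferFunctor p W) (hS : IsPGroup p S) (hF : F.IsSaturated p) {Q : Subgroup Ω}
    (hQ : F.IsNormal Q) (hQc : F.IsCentric Q) {χ : Q →* Ω} (hχ : χ ∈ F.Hom Q) (x : Q) :
    (x : Ω)⁻¹ * χ x ∈ focN W F := by
  obtain ⟨G, _, ι, hG⟩ := exists_model hS (⟨hF, Q, hQ, hQc⟩ : F.IsConstrained p)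
  obtain ⟨hn, -⟩ := normal_of_model hS hG hQ hQc
  obtain ⟨hfin, ⟨hι, hR⟩, ⟨T, hT⟩, hC⟩ := hG
  have hxS : (x : Ω) ∈ S := hQ.1 x.2
  have hxQ : χ x ∈ Q := stronglyClosed_mapsTo (stronglyClosed_of_isNormal hQ) hχ x x.2
  obtain ⟨g₀, hg₀⟩ := (hR Q hQ.1 χ (val_mem hχ)).1 hχ
  set y : S := ⟨x, hxS⟩⁻¹ * ⟨χ x, val_mem hχ x⟩ with hy
  have h1 : ι y ∈ commutator G := by
    rw [hy, map_mul, map_inv, hg₀ x, commutator_def]
    have h3 := Subgroup.commutator_mem_commutator (Subgroup.mem_top (ι ⟨x, hxS⟩)⁻¹) (Subgroup.mem_top g₀)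
    simpa [commutatorElement_def, mul_assoc] using h3
  have hQp : IsPGroup p (imageAlong ι Q) := by
    rw [imageAlong]
    exact (hS.to_subgroup _).map ι
  have h2 : ι y ∈ Cfsg.pCore p G :=
    (CfsgLib.PCore.le_pCore hn hQp : imageAlong ι Q ≤ Cfsg.pCore p G) ⟨y, Q.mul_mem (Q.inv_mem x.2) hxQ, rfl⟩
  set V : Subgroup G := (W ↥(T : Subgroup G)).map (T : Subgroup G).subtype with hVdef
  obtain ⟨-, h4⟩ := (hW.control G T hC).le ⟨h2, h1⟩
  have hV : ∀ w : G, w ∈ V ↔ ∃ z : S, (z : Ω) ∈ wIn W S ∧ ι z = w := by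
    intro w
    let e : S ≃* (T : Subgroup G) := (MonoidHom.ofInjective hι).trans (MulEquiv.subgroupCongr hT.symm)
    rw [hVdef, ← hW.map_eq S _ hS e]
    constructor
    · rintro ⟨_, ⟨z, hz, rfl⟩, rfl⟩; exact ⟨z, ⟨z, hz, rfl⟩, rfl⟩
    · rintro ⟨z, ⟨z', hz', he⟩, rfl⟩
      obtain rfl : z' = z := Subtype.ext he
      exact ⟨_, ⟨z', hz', rfl⟩, rfl⟩
  set N : Subgroup G := Subgroup.normalizer (V : Set G) with hNdef
  have hTN : (T : Subgroup G) ≤ N := by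
    intro t ht
    obtain ⟨s, rfl⟩ := hT.le ht
    refine Subgroup.mem_normalizer_fintype fun w hw => ?_
    obtain ⟨z, hz, rfl⟩ := (hV w).1 hw
    exact (hV _).2 ⟨s * z * s⁻¹, conj_mem_of_normalizer (normalizerIn_wIn_self hW hS s.2) hz, by simp⟩
  obtain ⟨y', hy', hyy⟩ := h4
  have hyP : (y' : G) ∈ (T : Subgroup G) := by
    rw [show (y' : G) = ι y from hyy, hT]; exact ⟨y, rfl⟩
  have h5 : y' ∈ ((T.subtype hTN : Sylow p N) : Subgroup N).focalSubgroup := by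
    rw [← CfsgLib.Transfer.inf_commutator_eq_focal]
    exact ⟨hyP, hy'⟩
  have h6 : ((T.subtype hTN : Sylow p N) : Subgroup N).focalSubgroup ≤
      (((focN W F).comap S.subtype).map ι).comap N.subtype := by
    refine CfsgLib.Transfer.focalSubgroup_le_of_forall fun a ha g hga => ?_
    obtain ⟨s, hs⟩ := hT.le (ha : (a : G) ∈ (T : Subgroup G))
    obtain ⟨s', hs'⟩ := hT.le (hga : ((g * a * g⁻¹ : N) : G) ∈ (T : Subgroup G))
    let R : Subgroup Ω := ((ι.range.comap (MulAut.conj (g : G)).toMonoidHom).comap ι).map S.subtype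
    have hRS : R ≤ S := Subgroup.map_subtype_le _
    obtain ⟨φ, hφ, hφι⟩ := exists_hom_of_conj (⟨hι, hR⟩ : F.IsRealizedBy ι) hRS (g : G) fun z => by
      obtain ⟨w, hw, hwz⟩ := z.2
      rw [show (⟨(z : Ω), hRS z.2⟩ : S) = w from Subtype.ext hwz.symm]
      exact hw
    have hWR : wIn W S ≤ R := fun z hz => by
      refine ⟨⟨z, wIn_le S hz⟩, ?_, rfl⟩
      obtain ⟨w, -, hw⟩ := (hV _).1 ((Subgroup.mem_normalizer_iff.1 g.2 _).1 ((hV _).2 ⟨⟨z, wIn_le S hz⟩, hz, rfl⟩))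
      exact ⟨w, hw⟩
    have hsR : ((s⁻¹ : S) : Ω) ∈ R := by
      refine ⟨s⁻¹, ⟨s'⁻¹, ?_⟩, rfl⟩
      show ι s'⁻¹ = (g : G) * ι s⁻¹ * (g : G)⁻¹
      rw [map_inv, map_inv, hs', hs]
      simp [mul_assoc]
    have hinv : ∀ z (hz : z ∈ wIn W S), φ ⟨z, hWR hz⟩ ∈ wIn W S := fun z hz => by
      obtain ⟨w, hwW, hw⟩ := (hV _).1 ((Subgroup.mem_normalizer_iff.1 g.2 _).1 ((hV _).2 ⟨⟨z, wIn_le S hz⟩, hz, rfl⟩))
      rw [← hι ((hφι ⟨z, hWR hz⟩ (val_mem hφ _)).trans hw.symm)] at hwW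
      exact hwW
    have h7 := mem_focN (mem_normalizerSystem_of_invariant (wIn_le (W := W) S) hφ le_rfl hWR
      (hRS.trans (le_inf le_rfl (normalizerIn_wIn_self hW hS))) hinv) ⟨_, hsR⟩
    refine ⟨(s⁻¹)⁻¹ * ⟨φ ⟨_, hsR⟩, val_mem hφ _⟩, h7, ?_⟩
    show ι _ = (a : G) * ((g : G) * (a : G)⁻¹ * (g : G)⁻¹)
    rw [map_mul, inv_inv, hφι ⟨_, hsR⟩ (val_mem hφ _)]
    show ι s * ((g : G) * ι s⁻¹ * (g : G)⁻¹) = _
    rw [map_inv, hs]
    rfl
  obtain ⟨w, hw, hwy⟩ := h6 h5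
  show (y : Ω) ∈ focN W F
  rw [← hι (hwy.trans hyy)]
  exact hw

end CfsgLib.Fusion
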