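import Cfsg.Agent.Fusion.ControlTransfer.Transport

/-!
The induction showing that the functor controls transfer.
-/

set_option autoImplicit false
set_option linter.style.haveILetI false

open Cfsg

namespace CfsgLib.Fusion

open Cfsg.FusionSystem

universe u

variable {Ω : Type u} [Group Ω] {S : Subgroup Ω} [Finite S] {F : Cfsg.FusionSystem S} {p : ℕ} [Fact p.Prime]
variable {W : ∀ (Q : Type u) [Group Q], Subgroup Q}

/-- What the induction proves. -/
def TransferGood (W : ∀ (Q : Type u) [Group Q], Subgroup Q) (F : Cfsg.FusionSystem S) : Prop :=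
  ∀ (P : Subgroup Ω) (φ : P →* Ω), φ ∈ F.Hom P → ∀ x : P, (x : Ω)⁻¹ * φ x ∈ focN W F

lemma ne_bot_of_centric (hbot : S ≠ ⊥) {R : Subgroup Ω} (hc : F.IsCentric R) : R ≠ ⊥ := by
  intro h
  refine hbot (le_bot_iff.1 (le_trans (fun s hs => ?_) ((hc.2 R (IsConj.refl hc.1)).trans h.le)))
  exact ⟨hs, Subgroup.mem_centralizer_iff.2 fun q hq => by simp [Subgroup.mem_bot.1 (h ▸ hq)]⟩

lemma aut_mem_normalizerHom {R : Subgroup Ω} (hR : R ≤ S) {α : MulAut R}
    (hα : R.subtype.comp α.toMonoidHom ∈ F.Hom R) :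
    R.subtype.comp α.toMonoidHom ∈ F.normalizerHom R R :=
  mem_normalizerSystem_of_invariant hR hα le_rfl le_rfl (le_inf hR Subgroup.le_normalizer)
    fun y hy => (α ⟨y, hy⟩).2

/-- The maps of the normalizer system of the value of the functor at `N_S(R)` have been handled. -/
lemma focN_step (hW : TransferFunctor p W) (hS : IsPGroup p S) (hF : F.IsSaturated p) (hbot : S ≠ ⊥) {R : Subgroup Ω}
    (hR : R ≤ S) (hRne : R ≠ ⊥)
    (hbig : ∀ R' : Subgroup Ω, R' ≠ ⊥ → F.IsFullyNormalized R' →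
      Nat.card (normalizerIn S R) < Nat.card (normalizerIn S R') → ∀ (U : Subgroup Ω) (χ : U →* Ω),
        χ ∈ F.normalizerHom R' U → ∀ u : U, (u : Ω)⁻¹ * χ u ∈ focN W F)
    {U : Subgroup Ω} {χ : U →* Ω} (hχ : χ ∈ F.normalizerHom (wIn W (normalizerIn S R)) U) (u : U) :
    (u : Ω)⁻¹ * χ u ∈ focN W F := by
  set X := focN W F with hXdef
  set E := congSystem F X (conj_mem_focN hW hS)
  haveI := finite_normalizerIn (S := S) R
  have hTS : normalizerIn S R ≤ S := inf_le_left
  have hTp := hS.to_le hTS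
  rcases (Subgroup.card_le_of_le hTS).lt_or_eq with hlt | heq
  swap
  · rw [Subgroup.eq_of_le_of_card_ge hTS heq.ge] at hχ
    exact mem_focN hχ u
  set Y := wIn W (normalizerIn S R) with hY
  have hYS : Y ≤ S := (wIn_le _).trans hTS
  haveI := finite_normalizerIn (S := S) Y
  have hTY : Nat.card (normalizerIn S R) < Nat.card (normalizerIn S Y) := by
    have h1 : normalizerIn S R < normalizerIn S Y :=
      lt_of_lt_of_le (lt_normalizerIn hS (lt_of_le_of_ne hTS fun h => hlt.ne (by rw [h])))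
        (inf_le_inf_left _ (normalizer_le_wIn hW hTp))
    rcases (Subgroup.card_le_of_le h1.le).lt_or_eq with h2 | h2
    · exact h2
    · exact absurd (Subgroup.eq_of_le_of_card_ge h1.le h2.ge) h1.ne
  obtain ⟨Y', hYY', hY'⟩ := exists_fullyNormalized (F := F) hYS
  obtain ⟨ψ, hψ, hYN, hψY, hψN⟩ := exists_map_normalizer p hS (fullyAutomized_of_fullyNormalized hS hF hY')
    (receptive_of_fullyNormalized hS hF hY') hYY'
  have hY'T : Nat.card (normalizerIn S R) < Nat.card (normalizerIn S Y') :=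
    lt_of_lt_of_le hTY (card_normalizerIn_le_of_map hψ hψN)
  have hY'ne : Y' ≠ ⊥ := fun h => wIn_ne_bot hW hTp
    (fun h' => hRne (le_bot_iff.1 ((le_inf hR Subgroup.le_normalizer).trans h'.le)))
    (show Y = ⊥ by rw [← Subgroup.card_eq_one, IsConj.card_eq hYY', h, Subgroup.card_bot])
  have hψE : ψ ∈ E.Hom (normalizerIn S Y) := by
    refine hom_mem_of_large hS hF E (Nat.card (normalizerIn S R)) (fun R' hR' hc' _ hlarge α hα => ?_) hψ hTY
    have hα' := (mem_autGroup hR'.1).1 hα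
    exact (mem_autGroup hR'.1).2
      ⟨hα', hbig R' (ne_bot_of_centric hbot hc') hR' hlarge R' _ (aut_mem_normalizerHom hR'.1 hα')⟩
  obtain ⟨U', μ, v, hμ, hv, hμv⟩ := exists_transport hY'.1 hψ hYN hψY hψN hχ u
  have h0 := hbig Y' hY'ne hY' hY'T U' μ hμ v
  rw [hμv, hv] at h0
  have h3 := X.mul_mem (X.mul_mem (hψE.2 ⟨u, hχ.2.1 u.2⟩) h0) (X.inv_mem (hψE.2 ⟨χ u, hχ.2.2.1 u⟩))
  have e2 : ∀ a b c d : Ω, a⁻¹ * b * (b⁻¹ * c) * (d⁻¹ * c)⁻¹ = a⁻¹ * d := fun a b c d => by group
  rwa [e2] at h3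

/-- One step of the induction when no nontrivial subgroup is normal in the system. -/
theorem good_of_core_bot (hW : TransferFunctor p W) (hS : IsPGroup p S) (hF : F.IsSaturated p) (hbot : S ≠ ⊥)
    (hcore : ∀ R : Subgroup Ω, F.IsNormal R → R = ⊥)
    (IH : ∀ {T : Subgroup Ω} [Finite T] (M : Cfsg.FusionSystem T), T ≤ S → M.IsSaturated p →
      M.IsSubsystemOf F → (∃ (P : Subgroup Ω) (φ : P →* Ω), φ ∈ F.Hom P ∧ φ ∉ M.Hom P) → TransferGood W M) :
    TransferGood W F := by
  set X := focN W F with hXdef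
  set E := congSystem F X (conj_mem_focN hW hS)
  have hclaim : ∀ d, ∀ R : Subgroup Ω, Nat.card S - Nat.card (normalizerIn S R) = d → R ≠ ⊥ →
      F.IsFullyNormalized R → ∀ (P : Subgroup Ω) (φ : P →* Ω), φ ∈ F.normalizerHom R P →
        ∀ x : P, (x : Ω)⁻¹ * φ x ∈ X := by
    intro d
    induction d using Nat.strong_induction_on with
    | _ d ihd =>
    intro R hd hRne hR P φ hφ x
    haveI := finite_normalizerIn (S := S) R
    have hne : ∃ (P : Subgroup Ω) (φ : P →* Ω), φ ∈ F.Hom P ∧ φ ∉ (normalizerSystem F hR.1).Hom P := by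
      by_contra hall
      push Not at hall
      exact hRne (hcore R ⟨hR.1, fun P φ hφ => (hall P φ hφ).2.2.2⟩)
    have hfn : focN W (normalizerSystem F hR.1) ≤ X :=
      focN_le_of_sub (normalizerSystem_sub hR.1) inf_le_left fun U χ hχ u =>
        focN_step hW hS hF hbot hR.1 hRne (fun R' hR'ne hR' hlt =>
          ihd _ (by
            have h' : Nat.card (normalizerIn S R') ≤ Nat.card S := Subgroup.card_le_of_le inf_le_left
            omega) R' rfl hR'ne hR') hχ u
    exact hfn (IH (normalizerSystem F hR.1) inf_le_left (isSaturated_normalizerSystem hS hF hR) (normalizerSystem_sub hR.1) hne P φ hφ x)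
  intro P φ hφ
  refine ((?_ : F ≤ E) P hφ).2
  intro P φ hφ
  refine le_of_centricRadical hS hF E (fun R hR hc _ α hα => ?_) P hφ
  have hα' := (mem_autGroup hR.1).1 hα
  exact (mem_autGroup hR.1).2
    ⟨hα', hclaim _ R rfl (ne_bot_of_centric hbot hc) hR R _ (aut_mem_normalizerHom hR.1 hα')⟩

/-- One step of the induction when a nontrivial proper subgroup is normal in the system. -/
theorem good_of_normal (hW : TransferFunctor p W) (hS : IsPGroup p S) (hF : F.IsSaturated p) {Q : Subgroup Ω}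
    (hQ : F.IsNormal Q) (hmax : ∀ R : Subgroup Ω, F.IsNormal R → Q ≤ R → R = Q) (hQS : Q ≠ S)
    (IH : ∀ {T : Subgroup Ω} [Finite T] (M : Cfsg.FusionSystem T), T ≤ S → M.IsSaturated p →
      M.IsSubsystemOf F → (∃ (P : Subgroup Ω) (φ : P →* Ω), φ ∈ F.Hom P ∧ φ ∉ M.Hom P) → TransferGood W M)
    (IHq : ∀ (Ω' : Type u) [Group Ω'] (T : Subgroup Ω') [Finite T] (M : Cfsg.FusionSystem T), IsPGroup p T →
      Nat.card T * Nat.card Q = Nat.card S → M.IsSaturated p → TransferGood W M) :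
    TransferGood W F := by
  set X := focN W F with hXdef
  haveI hQn : (Q.subgroupOf S).Normal :=
    (Subgroup.normal_subgroupOf_iff_le_normalizer hQ.1).2 (le_normalizer_of_isNormal hQ)
  set θ : S →* S ⧸ Q.subgroupOf S := QuotientGroup.mk' (Q.subgroupOf S) with hθ
  have hker : ∀ s : S, θ s = 1 ↔ (s : Ω) ∈ Q := fun s => QuotientGroup.eq_one_iff s
  have hQsc := stronglyClosed_of_isNormal hQ
  have hE := isFactorSystem_factorSystem hker hQsc
  have hEsat := isSaturated_factor hS hF hQsc hE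
  have hpR : IsPGroup p θ.range := (hS.to_quotient _).to_subgroup _
  have hgoodE : TransferGood W (factorSystem F θ hker hQsc) := by
    refine IHq _ θ.range _ hpR ?_ hEsat
    rw [MonoidHom.range_eq_top.2 (QuotientGroup.mk'_surjective _), Subgroup.card_top,
      ← Nat.card_congr (Subgroup.subgroupOfEquivOfLe hQ.1).toEquiv]
    exact (Subgroup.card_eq_card_quotient_mul_card_subgroup _).symm
  have hRne : θ.range ≠ ⊥ := by
    intro h0
    refine hQS (le_antisymm hQ.1 fun x hx => (hker ⟨x, hx⟩).1 ?_)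
    exact Subgroup.mem_bot.1 (h0 ▸ ⟨⟨x, hx⟩, rfl⟩)
  set V := wIn W θ.range with hV
  set Y := preimageAlong θ V with hYdef
  have hY : Y ≤ S := preimageAlong_le V
  have hQY : Q ≤ Y := ker_le_preimageAlong hQ.1 hker V
  have hYne : Y ≠ Q := by
    intro h0
    apply wIn_ne_bot hW hpR hRne
    rw [Subgroup.eq_bot_iff_forall]
    intro w hw
    obtain ⟨z, rfl⟩ := wIn_le _ hw
    exact (hker z).2 (h0 ▸ mem_preimageAlong.2 ⟨z.2, hw⟩)
  have hproper : ∀ {C : Subgroup Ω}, Q ≤ C → C ≤ S → C ≠ Q → S ≤ Subgroup.normalizer (C : Set Ω) →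
      ∀ (U : Subgroup Ω) (χ : U →* Ω), χ ∈ F.normalizerHom C U → ∀ u : U, (u : Ω)⁻¹ * χ u ∈ X := by
    intro C hQC hC hne hSC U χ hχ u
    haveI := finite_normalizerIn (S := S) C
    have hne' : ∃ (P : Subgroup Ω) (φ : P →* Ω), φ ∈ F.Hom P ∧ φ ∉ (normalizerSystem F hC).Hom P := by
      by_contra hall
      push Not at hall
      exact hne (hmax C ⟨hC, fun P φ hφ => (hall P φ hφ).2.2.2⟩ hQC)
    refine focN_le_of_sub (normalizerSystem_sub hC) inf_le_left (fun U' χ' hχ' u' => ?_)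
      (IH (normalizerSystem F hC) inf_le_left
        (isSaturated_normalizerSystem hS hF (isFullyNormalized_of_le_normalizer hC hSC)) (normalizerSystem_sub hC)
        hne' U χ hχ u)
    rw [show normalizerIn S C = S from inf_eq_left.2 hSC] at hχ'
    exact mem_focN hχ' u'
  have hY' : S ≤ Subgroup.normalizer (Y : Set Ω) := fun z hz =>
    mem_normalizer_preimageAlong (S' := θ.range) rfl (wIn_le _) ⟨z, hz⟩
      (normalizerIn_wIn_self hW hpR ⟨⟨z, hz⟩, rfl⟩)
  have hXE : focN W (factorSystem F θ hker hQsc) ≤ (X.comap S.subtype).map θ := by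
    refine (Subgroup.closure_le _).2 ?_
    rintro _ ⟨X', φ', x', ⟨-, hX', -, ψ', hψ', hagψ, hψV⟩, rfl⟩
    obtain ⟨hXV, ψ, hψ, hi⟩ := hψ'
    have hXle : preimageAlong θ X' ≤ preimageAlong θ (X' ⊔ V) :=
      Subgroup.map_mono (Subgroup.comap_mono le_sup_left)
    have hYle : Y ≤ preimageAlong θ (X' ⊔ V) := Subgroup.map_mono (Subgroup.comap_mono le_sup_right)
    have h1 := hproper hQY hY hYne hY' _ _ (mem_normalizerSystem_of_invariant hY hψ hXle hYle
      ((preimageAlong_le X').trans (le_inf le_rfl hY')) fun y hy => by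
        obtain ⟨hyS, hyV⟩ := mem_preimageAlong.1 hy
        refine mem_preimageAlong.2 ⟨val_mem hψ _, ?_⟩
        rw [← induced_apply hi (hYle hy) (val_mem hψ _) (x := ⟨θ ⟨y, hyS⟩, Subgroup.mem_sup_right hyV⟩) rfl]
        exact hψV.le ⟨_, hyV, rfl⟩)
    obtain ⟨d, hd⟩ := exists_section (θ := θ) (hX'.trans inf_le_left) x'
    refine ⟨(⟨d, preimageAlong_le _ d.2⟩ : S)⁻¹ * ⟨ψ (Subgroup.inclusion hXle d), val_mem hψ _⟩, h1 d, ?_⟩
    rw [map_mul, map_inv, hd, ← hagψ x']
    exact congrArg ((x' : S ⧸ Q.subgroupOf S)⁻¹ * ·)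
      (induced_apply hi (hXle d.2) (val_mem hψ _) (x := Subgroup.inclusion le_sup_left x') hd).symm
  have hQX : ∀ z ∈ Q, z ∈ F.focalSubgroup → z ∈ X := by
    intro z hzQ hz
    refine mem_of_focal_of_normal hS hF hQ (conj_mem_focN hW hS) (fun χ hχ q => ?_) hzQ hz
    obtain ⟨hmem, hSC⟩ := exists_extension_centralizer hS hF hQ hχ
    by_cases hC : centralizerIn S Q ≤ Q
    · refine mem_focN_of_centric hW hS hF hQ ⟨hQ.1, fun R hR => ?_⟩ hχ q
      obtain ⟨ρ, hρ, rfl⟩ := hR
      haveI := finite_of_le hQ.1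
      have : ρ.range = Q := Subgroup.eq_of_le_of_card_ge
        (by rintro _ ⟨a, rfl⟩; exact stronglyClosed_mapsTo hQsc hρ a a.2)
        (Nat.card_congr (MonoidHom.ofInjective (F.injective_of_mem hρ)).toEquiv).le
      rwa [this]
    exact hproper le_sup_left (sup_le hQ.1 inf_le_left) (fun h => hC (le_sup_right.trans h.le)) hSC Q χ hmem q
  intro P φ hφ x
  obtain ⟨D, ψ, hψ, hPD, hQD, hn⟩ := nearMap_of_mem hS hF hQsc (Nat.card S + 1) P φ hφ (by omega)
  have hDS := le_of_hom hψ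
  have hpre : preimageAlong θ (imageAlong θ D) = D := preimageAlong_imageAlong hker hDS hQD
  obtain ⟨φ', hφ', -⟩ := exists_induced hker hQsc (imageAlong_le_range D) (restrict hψ hpre.le)
  set xS : S := ⟨x, le_of_hom hφ x.2⟩ with hxS
  set ψxS : S := ⟨ψ (Subgroup.inclusion hPD x), val_mem hψ _⟩ with hψxS
  set φxS : S := ⟨φ x, val_mem hφ x⟩ with hφxS
  have h1 : (θ xS)⁻¹ * θ ψxS ∈ (X.comap S.subtype).map θ := by
    refine hXE ?_
    have h2 := hgoodE (imageAlong θ D) φ' ⟨imageAlong_le_range D, _, restrict hψ hpre.le, hφ'⟩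
      ⟨θ xS, ⟨xS, hPD x.2, rfl⟩⟩
    rw [induced_apply hφ' (hpre.ge (hPD x.2)) (val_mem (restrict hψ hpre.le) _) rfl] at h2
    exact h2
  obtain ⟨w, hw, hwe⟩ := h1
  have h3 : θ ψxS = θ φxS := by
    rw [eq_comm, ← inv_mul_eq_one, ← map_inv, ← map_mul]
    exact (hker _).2 (hn x)
  have h4 : (w : Ω)⁻¹ * ((x : Ω)⁻¹ * φ x) ∈ Q := by
    refine (hker (w⁻¹ * (xS⁻¹ * φxS))).1 ?_
    rw [map_mul, map_mul, map_inv, map_inv, ← h3, hwe, inv_mul_cancel]
  have h5 := hQX _ h4 (Subgroup.mul_mem _ (Subgroup.inv_mem _ (focN_le_focal hw))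
    (Subgroup.subset_closure ⟨P, φ, x, hφ, rfl⟩))
  have h6 := X.mul_mem (show (w : Ω) ∈ X from hw) h5
  rwa [mul_inv_cancel_left] at h6

omit [Finite S] in
/-- The functor controls transfer: every map moves each element inside the focal subgroup of the normalizer. -/
theorem transferGood (hW : TransferFunctor p W) : ∀ (s m : ℕ) {Ω : Type u} [Group Ω] {S : Subgroup Ω} [Finite S],
    IsPGroup p S → ∀ F : Cfsg.FusionSystem S, F.IsSaturated p → Nat.card S = s → (homSet F).ncard = m →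
      TransferGood W F := by
  intro s
  induction s using Nat.strong_induction_on with
  | _ s ihs =>
  intro m
  induction m using Nat.strong_induction_on with
  | _ m ihm =>
  intro Ω _ S _ hS F hF hs hm
  have IH : ∀ {T : Subgroup Ω} [Finite T] (M : Cfsg.FusionSystem T), T ≤ S → M.IsSaturated p →
      M.IsSubsystemOf F → (∃ (P : Subgroup Ω) (φ : P →* Ω), φ ∈ F.Hom P ∧ φ ∉ M.Hom P) → TransferGood W M := by
    intro T _ M hT hM hsub hne
    have hTp := hS.to_le hT
    rcases (Subgroup.card_le_of_le hT).lt_or_eq with hlt | heq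
    · exact ihs _ (hs ▸ hlt) _ hTp M hM rfl rfl
    · exact ihm _ (hm ▸ homSet_ncard_lt hsub hne) hTp M hM (heq.trans hs) rfl
  by_cases hbot : S = ⊥
  · intro P φ hφ x
    have h1 : (x : Ω) = 1 := Subgroup.mem_bot.1 (hbot ▸ le_of_hom hφ x.2)
    have h2 : φ x = 1 := Subgroup.mem_bot.1 (hbot ▸ val_mem hφ x)
    simp [h1, h2]
  obtain ⟨Q, hQ, hmax⟩ := exists_max_normal F
  rcases eq_or_ne Q ⊥ with hQb | hQb
  · subst hQb
    exact good_of_core_bot hW hS hF hbot (fun R hR => hmax R hR bot_le) IH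
  rcases eq_or_ne Q S with hQS | hQS
  · subst hQS
    intro P φ hφ x
    obtain ⟨ψ, hψ, hag, -⟩ := hQ.2 P φ hφ
    have h1 := mem_focN (mem_normalizerSystem_of_aut hW hS (restrict hψ le_sup_right) (le_of_hom hφ)) x
    rw [← hag x]
    exact h1
  refine good_of_normal hW hS hF hQ hmax hQS IH fun Ω' _ T _ M hTp hc hM => ihs _ ?_ _ hTp M hM rfl rfl
  rw [← hs, ← hc]
  haveI := finite_of_le hQ.1
  exact lt_mul_of_one_lt_right Nat.card_pos
    (Finite.one_lt_card_iff_nontrivial.2 ((Subgroup.nontrivial_iff_ne_bot Q).2 hQb))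

/-- A functor with the local property controls transfer in a saturated system. -/
theorem focalSubgroup_eq_focN (hW : TransferFunctor p W) (hS : IsPGroup p S) (hF : F.IsSaturated p) :
    focN W F = F.focalSubgroup := by
  refine le_antisymm focN_le_focal ((Subgroup.closure_le _).2 ?_)
  rintro _ ⟨P, φ, x, hφ, rfl⟩
  exact transferGood hW _ _ hS F hF rfl rfl P φ hφ x

end CfsgLib.Fusion
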