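import Cfsg.Agent.Fusion.ControlTransfer.Basic

/-!
Transport of maps between normalizer systems, and the focal subgroup inside a normal subgroup.
-/

set_option autoImplicit false
set_option linter.style.haveILetI false

open Cfsg

namespace CfsgLib.Fusion

open Cfsg.FusionSystem
open scoped commutatorElement

universe u

variable {Ω : Type u} [Group Ω] {S : Subgroup Ω} [Finite S] {F : Cfsg.FusionSystem S} {p : ℕ}
variable {W : ∀ (Q : Type u) [Group Q], Subgroup Q}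

/-- A map of `N_F(Y)` carried to `N_F(Y')` along a map on `N_S(Y)`. -/
lemma exists_transport {Y Y' : Subgroup Ω} (hY' : Y' ≤ S) {ψ : normalizerIn S Y →* Ω}
    (hψ : ψ ∈ F.Hom (normalizerIn S Y)) (hYN : Y ≤ normalizerIn S Y)
    (hψY : (ψ.comp (Subgroup.inclusion hYN)).range = Y') (hψN : ∀ x, ψ x ∈ normalizerIn S Y')
    {U : Subgroup Ω} {χ : U →* Ω} (hχ : χ ∈ F.normalizerHom Y U) (u : U) :
    ∃ (U' : Subgroup Ω) (μ : U' →* Ω) (v : U'), μ ∈ F.normalizerHom Y' U' ∧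
      (v : Ω) = ψ ⟨u, hχ.2.1 u.2⟩ ∧ μ v = ψ ⟨χ u, hχ.2.2.1 u⟩ := by
  obtain ⟨hχF, hUN, hχN, χ', hχ', hagχ, hχY⟩ := hχ
  have hDN : (U ⊔ Y) ≤ normalizerIn S Y := sup_le hUN hYN
  have hle : (U ⊔ Y) ≤ ((normalizerIn S Y).comap χ').map (U ⊔ Y).subtype := by
    refine sup_le (fun a ha => ?_) fun a ha => ?_
    · refine ⟨⟨a, Subgroup.mem_sup_left ha⟩, ?_, rfl⟩
      have h1 := hagχ ⟨a, ha⟩
      show χ' _ ∈ normalizerIn S Y
      rw [show χ' ⟨a, Subgroup.mem_sup_left ha⟩ = χ ⟨a, ha⟩ from h1]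
      exact hχN ⟨a, ha⟩
    · exact ⟨⟨a, Subgroup.mem_sup_right ha⟩, hYN (hχY.le ⟨_, ha, rfl⟩), rfl⟩
  have hχ'N : ∀ a : ↥(U ⊔ Y), χ' a ∈ normalizerIn S Y := by
    intro a
    obtain ⟨b, hb, hba⟩ := hle a.2
    exact (Subtype.ext hba : b = a) ▸ hb
  set ρ := ψ.comp (Subgroup.inclusion hDN) with hρ
  have hρF : ρ ∈ F.Hom (U ⊔ Y) := restrict hψ hDN
  obtain ⟨γ, hγ, -, hγ1, -⟩ := exists_inv hρF (rfl : ρ.range = ρ.range)
  have hγD : ∀ v, γ v ∈ (U ⊔ Y) := fun v => by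
    obtain ⟨a, ha⟩ := v.2
    rw [show γ v = (a : Ω) from (congrArg γ (Subtype.ext ha.symm)).trans (hγ1 a ⟨a, rfl⟩)]
    exact a.2
  set μ := (ψ.comp (χ'.codRestrict _ hχ'N)).comp (γ.codRestrict (U ⊔ Y) hγD) with hμ
  have hμF : μ ∈ F.Hom ρ.range := F.comp_mem hγ (F.comp_mem hχ' hψ hχ'N) hγD
  have hμapp : ∀ a : ↥(U ⊔ Y), μ ⟨ρ a, ⟨a, rfl⟩⟩ = ψ ⟨χ' a, hχ'N a⟩ := fun a => by
    have h1 : γ.codRestrict (U ⊔ Y) hγD ⟨ρ a, ⟨a, rfl⟩⟩ = a := Subtype.ext (hγ1 a _)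
    rw [hμ, MonoidHom.comp_apply, h1]
    rfl
  have hρN : ρ.range ≤ normalizerIn S Y' := by rintro _ ⟨a, rfl⟩; exact hψN _
  have hY'r : Y' ≤ ρ.range := by
    rw [← hψY]
    rintro _ ⟨a, rfl⟩
    exact ⟨⟨a, Subgroup.mem_sup_right a.2⟩, rfl⟩
  have hμY : ∀ v (hv : v ∈ Y'), μ ⟨v, hY'r hv⟩ ∈ Y' := by
    intro v hv
    obtain ⟨a, ha⟩ := hψY.ge hv
    rw [show (⟨v, hY'r hv⟩ : ρ.range) = ⟨ρ ⟨a, Subgroup.mem_sup_right a.2⟩, ⟨_, rfl⟩⟩ from
      Subtype.ext ha.symm, hμapp]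
    exact hψY.le ⟨⟨χ' ⟨a, Subgroup.mem_sup_right a.2⟩, hχY.le ⟨_, a.2, rfl⟩⟩, rfl⟩
  refine ⟨ρ.range, μ.comp (Subgroup.inclusion le_rfl), ⟨ρ ⟨u, Subgroup.mem_sup_left u.2⟩, ⟨_, rfl⟩⟩,
    mem_normalizerSystem_of_invariant hY' hμF le_rfl hY'r hρN hμY, rfl, ?_⟩
  refine (hμapp ⟨u, Subgroup.mem_sup_left u.2⟩).trans (congrArg ψ (Subtype.ext ?_))
  exact hagχ u

variable [Fact p.Prime]

/-- A map on a fully normalized subgroup onto itself extends to the product with its centralizer. -/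
lemma exists_extension_centralizer (hS : IsPGroup p S) (hF : F.IsSaturated p) {Q : Subgroup Ω} (hQ : F.IsNormal Q)
    {χ : Q →* Ω} (hχ : χ ∈ F.Hom Q) :
    χ ∈ F.normalizerHom (Q ⊔ centralizerIn S Q) Q ∧ S ≤ Subgroup.normalizer ((Q ⊔ centralizerIn S Q : Subgroup Ω) : Set Ω) := by
  have hQsc := stronglyClosed_of_isNormal hQ
  have hn := le_normalizer_of_isNormal hQ
  haveI := finite_of_le hQ.1
  have hχQ : ∀ a : Q, χ a ∈ Q := fun a => stronglyClosed_mapsTo hQsc hχ a a.2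
  have hr : χ.range = Q := Subgroup.eq_of_le_of_card_ge (by rintro _ ⟨a, rfl⟩; exact hχQ a)
    (Nat.card_congr (MonoidHom.ofInjective (F.injective_of_mem hχ)).toEquiv).le
  set C := Q ⊔ centralizerIn S Q with hCdef
  have hCS : C ≤ S := sup_le hQ.1 inf_le_left
  have hSC : S ≤ Subgroup.normalizer (C : Set Ω) := by
    intro g hg
    haveI := finite_of_le hCS
    refine Subgroup.mem_normalizer_fintype fun c hc => ?_
    have hle : C ≤ C.comap (MulAut.conj g).toMonoidHom := sup_le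
      (fun a ha => Subgroup.mem_sup_left (conj_mem_of_normalizer (hn hg) ha))
      fun a ha => Subgroup.mem_sup_right ⟨S.mul_mem (S.mul_mem hg ha.1) (S.inv_mem hg),
        Subgroup.mem_centralizer_iff.2 fun b hb => by
          have h2 := Subgroup.mem_centralizer_iff.1 ha.2 _ (conj_inv_mem_of_normalizer (hn hg) hb)
          show b * (g * a * g⁻¹) = g * a * g⁻¹ * b
          calc b * (g * a * g⁻¹) = g * (g⁻¹ * b * g * a) * g⁻¹ := by group
            _ = g * (a * (g⁻¹ * b * g)) * g⁻¹ := by rw [h2]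
            _ = g * a * g⁻¹ * b := by group⟩
    exact hle hc
  refine ⟨?_, hSC⟩
  obtain ⟨ρ, hρ, hag⟩ := (receptive_of_fullyNormalized hS hF (isFullyNormalized_of_le_normalizer hQ.1 hn)).2
    Q χ hχ hr
  have hCD : C ≤ extender S Q χ := sup_le (le_extender hχ) centralizerIn_le_extender
  have hle : C ≤ (C.comap ρ).map (extender S Q χ).subtype := by
    refine sup_le (fun a ha => ⟨⟨a, le_extender hχ ha⟩, Subgroup.mem_sup_left ?_, rfl⟩)
      fun c hc => ⟨⟨c, centralizerIn_le_extender hc⟩, Subgroup.mem_sup_right ?_, rfl⟩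
    · show ρ _ ∈ Q
      rw [hag a ha]
      exact hχQ _
    · have := map_mem_centralizerIn hρ (le_extender hχ) (φ := χ) (fun a => hag a a.2 _)
        (centralizerIn_le_extender hc) hc.2
      rwa [hr] at this
  have hρC : ∀ c (hc : c ∈ C), ρ ⟨c, hCD hc⟩ ∈ C := by
    intro c hc
    obtain ⟨b, hb, hbc⟩ := hle hc
    exact (Subtype.ext hbc : b = ⟨c, hCD hc⟩) ▸ hb
  have h1 := mem_normalizerSystem_of_invariant hCS hρ (le_extender hχ) hCD (hQ.1.trans (le_inf le_rfl hSC)) hρC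
  have h2 : ρ.comp (Subgroup.inclusion (le_extender hχ)) = χ := MonoidHom.ext fun a => hag a a.2 _
  rw [h2] at h1
  exact h1

/-- The focal subgroup meets a normal subgroup inside `X`, when the automorphisms of that subgroup move it
inside `X`. -/
lemma mem_of_focal_of_normal (hS : IsPGroup p S) (hF : F.IsSaturated p) {Q : Subgroup Ω} (hQ : F.IsNormal Q)
    {X : Subgroup Ω} (hX : ∀ s ∈ S, ∀ x ∈ S, x⁻¹ * (s * x * s⁻¹) ∈ X)
    (hχX : ∀ χ : Q →* Ω, χ ∈ F.Hom Q → ∀ q : Q, (q : Ω)⁻¹ * χ q ∈ X) {z : Ω} (hzQ : z ∈ Q)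
    (hz : z ∈ F.focalSubgroup) : z ∈ X := by
  let X₁ := X.comap S.subtype
  have hcomm : commutator S ≤ X₁ := by
    rw [commutator_def, Subgroup.commutator_le]
    rintro a - b -
    show ((⁅a, b⁆ : S) : Ω) ∈ X
    have := hX b b.2 _ (S.inv_mem a.2)
    simpa [commutatorElement_def, mul_assoc] using this
  let K := X₁.map Abelianization.of
  set f : S →* Abelianization S ⧸ K := (QuotientGroup.mk' K).comp Abelianization.of with hf
  have hker' : ∀ w : S, f w = 1 ↔ (w : Ω) ∈ X := by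
    intro w
    show ((Abelianization.of w : Abelianization S) : Abelianization S ⧸ K) = 1 ↔ _
    rw [QuotientGroup.eq_one_iff]
    refine ⟨?_, fun h => ⟨w, h, rfl⟩⟩
    rintro ⟨v, hv, hvw⟩
    have h1 : v⁻¹ * w ∈ X₁ := hcomm (by
      rw [← Abelianization.ker_of]
      show Abelianization.of (v⁻¹ * w) = 1
      rw [map_mul, map_inv, hvw, inv_mul_cancel])
    have := X₁.mul_mem hv h1
    rwa [mul_inv_cancel_left] at this
  refine (hker' ⟨z, hQ.1 hzQ⟩).1 (CfsgLib.Biset.eq_one_of_mem_normal hS hF hQ f (fun χ hχ q => ?_) hzQ hz)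
  have h1 := (hker' (⟨q, hQ.1 q.2⟩⁻¹ * ⟨χ q, val_mem hχ q⟩)).2 (hχX χ hχ q)
  rw [map_mul, map_inv, inv_mul_eq_one] at h1
  exact h1.symm

end CfsgLib.Fusion
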